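import Cfsg.Agent.H903.FFour.Const
import Cfsg.Agent.SmallSimple.SelfCentPrime

/-!
# The constant values on an isolated abelian subgroup

`val_of_rel` : `T` abelian, `C(a) ≤ T` for all `1 ≠ a ∈ T`, `|N(T) : T| = e`, `r` prime, `r ∣ |T|`, `¬ r² ∣ |G|`,
`e t = r - 1`, `2 ≤ t`: an irreducible character with constant integral value `z` on `T#` has `z = 0` or `z = ± 1`.
-/

set_option autoImplicit false

open Cfsg Subgroup
open scoped ComplexConjugate

namespace Cfsg.Agent.H903.FFour

universe u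

variable {G : Type u} [Group G] [Finite G]

/-- `N(T) = N(Q)` for the Sylow subgroup `Q` of prime order of `T` -/
theorem normalizer_eq {T : Subgroup G} {r : ℕ} [hr : Fact r.Prime] {Q : Sylow r G} (hQ : Nat.card Q = r)
    (hCQ : centralizer ((Q : Subgroup G) : Set G) = T) :
    normalizer (T : Set G) = normalizer ((Q : Subgroup G) : Set G) := by
  have hle : (Q : Subgroup G) ≤ T := hCQ ▸ SmallSimple.ThetaSetup.le_centralizer hQ
  obtain ⟨x, hx, hx1⟩ := SmallSimple.ThetaSetup.exists_ne_one (P := (Q : Subgroup G)) hQ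
  have hox : orderOf x = r := Blocks.CyclicOrtho.orderOf_eq Q hQ hx hx1
  apply le_antisymm
  · intro g hg
    have h1 : g * x * g⁻¹ ∈ T := (mem_normalizer_iff.1 hg x).1 (hle hx)
    have h2 : orderOf (g * x * g⁻¹) = r := by
      have := orderOf_injective (MulAut.conj g).toMonoidHom (MulAut.conj g).injective x
      simpa [hox] using this
    have h3 : g * x * g⁻¹ ∈ (Q : Subgroup G) := by
      have h4 : zpowers (g * x * g⁻¹) ≤ normalizer ((Q : Subgroup G) : Set G) := by
        refine le_trans ?_ (centralizer_le_normalizer _)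
        rw [hCQ]
        exact zpowers_le.2 h1
      have h5 : IsPGroup r (zpowers (g * x * g⁻¹) ⊔ (Q : Subgroup G) : Subgroup G) :=
        IsPGroup.to_sup_of_normal_right' (IsPGroup.of_card (n := 1) (by rw [Nat.card_zpowers, h2, pow_one])) Q.isPGroup' h4
      have h6 := Q.is_maximal' h5 le_sup_right
      rw [← h6]
      exact mem_sup_left (mem_zpowers _)
    have h4 : g * x * g⁻¹ ≠ 1 := by
      intro h
      rw [h, orderOf_one] at h2
      exact hr.out.one_lt.ne h2
    exact SmallSimple.ThetaOrtho.mem_normalizer_of_conj (P := Q) hQ hx h3 h4 rfl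
  · intro g hg
    rw [mem_normalizer_iff]
    have h1 : ∀ g ∈ normalizer ((Q : Subgroup G) : Set G), ∀ a ∈ T, g * a * g⁻¹ ∈ T := by
      intro g hg a ha
      rw [← hCQ] at ha ⊢
      rw [mem_centralizer_iff] at ha ⊢
      intro y hy
      have h2 : g⁻¹ * y * g ∈ (Q : Subgroup G) := by
        have := (mem_normalizer_iff.1 (inv_mem hg) y).1 hy
        simpa using this
      have h3 := ha _ h2
      have h4 : y * (g * a * g⁻¹) = g * ((g⁻¹ * y * g) * a) * g⁻¹ := by group
      rw [h4, h3]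
      group
    intro a
    refine ⟨h1 g hg a, fun ha => ?_⟩
    have h2 := h1 g⁻¹ (inv_mem hg) _ ha
    have h3 : g⁻¹ * (g * a * g⁻¹) * g⁻¹⁻¹ = a := by group
    rwa [h3] at h2

theorem exists_syl {T : Subgroup G} (hab : ∀ a ∈ T, ∀ b ∈ T, a * b = b * a)
    (hc : ∀ a ∈ T, a ≠ 1 → centralizer ({a} : Set G) ≤ T) {r : ℕ} [hr : Fact r.Prime] (hrT : r ∣ Nat.card T)
    (hrG : ¬ r ^ 2 ∣ Nat.card G) :
    ∃ Q : Sylow r G, Nat.card Q = r ∧ centralizer ((Q : Subgroup G) : Set G) = T := by
  obtain ⟨x', hx'⟩ := exists_prime_orderOf_dvd_card' (G := ↥T) r hrT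
  set x : G := (x' : G) with hxdef
  have hxT : x ∈ T := x'.2
  have hx : orderOf x = r := by rw [hxdef, orderOf_coe, hx']
  have hx1 : x ≠ 1 := by
    intro h
    rw [h, orderOf_one] at hx
    exact hr.out.one_lt.ne hx
  have hCx : centralizer ({x} : Set G) = T := by
    apply le_antisymm (hc x hxT hx1)
    intro y hy
    rw [mem_centralizer_singleton_iff]
    exact hab y hy x hxT
  have hf : (Nat.card G).factorization r = 1 := by
    apply le_antisymm
    · by_contra h
      push Not at h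
      exact hrG ((hr.out.pow_dvd_iff_le_factorization Nat.card_pos.ne').2 h)
    · exact (hr.out.dvd_iff_one_le_factorization Nat.card_pos.ne').1 (hrT.trans (Subgroup.card_subgroup_dvd_card T))
  have hcz : Nat.card (zpowers x) = r := by rw [Nat.card_zpowers, hx]
  refine ⟨Sylow.ofCard (zpowers x) (by rw [hcz, hf, pow_one]), hcz, ?_⟩
  show centralizer ((zpowers x : Subgroup G) : Set G) = T
  rw [SmallSimple.SelfCentPrime.centralizer_zpowers, hCx]

theorem val_of_rel {T : Subgroup G} (hab : ∀ a ∈ T, ∀ b ∈ T, a * b = b * a)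
    (hc : ∀ a ∈ T, a ≠ 1 → centralizer ({a} : Set G) ≤ T) {r : ℕ} (hr : r.Prime) (hrT : r ∣ Nat.card T)
    (hrG : ¬ r ^ 2 ∣ Nat.card G) {e t : ℕ} (hrel : T.relIndex (normalizer (T : Set G)) = e) (ht : e * t = r - 1)
    (ht2 : 2 ≤ t) (χ : IrrCharacter G) (z : ℤ) (hz : ∀ a ∈ T, a ≠ 1 → (χ : G → ℂ) a = z) : z = 0 ∨ z = 1 ∨ z = -1 := by
  have := Fact.mk hr
  obtain ⟨Q, hQ, hCQ⟩ := exists_syl hab hc hrT hrG
  refine const_val (P := Q) hQ ?_ ht ht2 (by rw [hCQ]; exact hz)
  rw [hCQ, ← normalizer_eq hQ hCQ]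
  exact hrel

end Cfsg.Agent.H903.FFour
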